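import Mathlib
import Cfsg.Prelude
import Cfsg.Agent.Lib.Helper2.BergerCover

set_option autoImplicit false

namespace Cfsg.Agent.Lib.Helper2

open scoped ComplexConjugate

universe u

/-- a counterexample of degree `n` to Berger's theorem -/
def Counter (n : ℕ) : Prop :=
  ∃ (X : Type u) (_ : Group X) (_ : Fintype X) (_ : Group.IsSolvable X) (β : X → ℂ),
    Cfsg.IsIrrCharacter X β ∧ QP X β ∧ β 1 = (n : ℂ) ∧
    ∃ (T : Subgroup X) (ρ : T → ℂ), T ≠ ⊤ ∧ Cfsg.IsCharacter T ρ ∧ Cfsg.indFun T ρ = β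

/-- the cover attached to a homogeneous restriction, with the Gallagher correspondent -/
theorem cover_setup {G : Type u} [Group G] [Fintype G] [Group.IsSolvable G] (N : Subgroup G)
    [hN : N.Normal] {θ : N → ℂ} (hθ : Cfsg.IsIrrCharacter N θ) {χ : G → ℂ}
    (hχ : Cfsg.IsIrrCharacter G χ) (hqp : QP G χ) (e : ℕ)
    (he : (fun n : N => χ n) = (e : ℂ) • θ) :
    ∃ (Γ : Type u) (_ : Group Γ) (_ : Fintype Γ) (_ : Group.IsSolvable Γ) (π₁ : Γ →* G)
      (ι : N →* Γ) (π : Γ → ℂ) (β : Γ → ℂ), IsCover N θ π₁ ι π ∧ Cfsg.IsIrrCharacter Γ β ∧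
      (∀ n : N, β (ι n) = β 1) ∧ β * π = χ ∘ π₁ ∧ QP Γ β := by
  classical
  have := Fintype.ofFinite N
  obtain ⟨d, hd0, hd⟩ := irr_apply_one hχ
  have heN : ∀ n : N, χ n = (e : ℂ) * θ n := fun n => congrFun he n
  have he0 : (e : ℂ) ≠ 0 := by
    intro h0
    have := heN 1
    rw [h0, zero_mul] at this
    simp only [OneMemClass.coe_one] at this
    rw [hd] at this
    exact hd0.ne' (by exact_mod_cast this)
  have hχcf := isClassFunction_of_isIrrCharacter hχ
  have hinv : ∀ (g : G) (n : N), θ ⟨g * n * g⁻¹, hN.conj_mem (n : G) n.2 g⟩ = θ n := by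
    intro g n
    have h1 := heN ⟨g * n * g⁻¹, hN.conj_mem (n : G) n.2 g⟩
    have h2 := heN n
    have h3 : χ (g * n * g⁻¹) = χ n := hχcf n g
    rw [h3, h2] at h1
    exact (mul_left_cancel₀ he0 h1).symm
  obtain ⟨Γ, instG, instF, π₁, ι, π, hcov⟩ := exists_isCover N hθ hinv
  letI : Fintype Γ := Fintype.ofFinite Γ
  have hsolv : Group.IsSolvable Γ := by
    have hker : Group.IsSolvable π₁.ker := Group.isSolvable_of_comm (fun a b => by
      apply Subtype.ext
      have := hcov.ker_le a.2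
      rw [Subgroup.mem_center_iff] at this
      exact (this b).symm)
    exact Group.isSolvable_of_ker_le_range π₁.ker.subtype π₁ (by simp)
  have hcon : Cfsg.classInner (fun n : N => (χ ∘ π₁) (ι n)) θ ≠ 0 := by
    have : (fun n : N => (χ ∘ π₁) (ι n)) = (e : ℂ) • θ := by
      funext n
      simp only [Function.comp_apply, Pi.smul_apply, smul_eq_mul]
      rw [hcov.sect]
      exact heN n
    rw [this, classInner_smul_left, classInner_irr_self hθ, mul_one]
    exact he0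
  have hιn : ι.range.Normal := by
    constructor
    rintro _ ⟨n, rfl⟩ γ
    rw [hcov.conj γ n]
    exact ⟨_, rfl⟩
  obtain ⟨β, hβ, hβι, hprod⟩ := gallagher_cover ι hcov.ι_injective hιn hθ hcov.irr hcov.ext
    (isIrrCharacter_comp_of_surjective hχ π₁ hcov.surj) hcon
  exact ⟨Γ, instG, inferInstance, hsolv, π₁, ι, π, β, hcov, hβ, hβι, hprod,
    qp_cover N hθ hcov hqp hβ hβι hprod⟩

/-- Step I: if the constituent of `χ` on the core is not linear, pass to its cover -/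
theorem berger_stepI {G : Type u} [Group G] [Fintype G] [Group.IsSolvable G] (L H : Subgroup G)
    [hL : L.Normal] (hLH : L ≤ H) (hH : H ≠ ⊤) {χ : G → ℂ} (hχ : Cfsg.IsIrrCharacter G χ)
    (hqp : QP G χ) {ϑ : H → ℂ} (hϑ : Cfsg.IsIrrCharacter H ϑ) (hind : Cfsg.indFun H ϑ = χ)
    {η : L → ℂ} (hη : Cfsg.IsIrrCharacter L η) (e : ℕ)
    (he : (fun l : L => χ l) = (e : ℂ) • η) (n a : ℕ) (hn : χ 1 = (n : ℂ)) (ha : η 1 = (a : ℂ))
    (ha2 : 2 ≤ a) : ∃ m < n, Counter.{u} m := by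
  classical
  have := Fintype.ofFinite H
  have := Fintype.ofFinite L
  obtain ⟨Γ, instG, instF, hsolv, π₁, ι, π, β, hcov, hβ, hβι, hprod, hqpΓ⟩ :=
    cover_setup L hη hχ hqp e he
  obtain ⟨b, hb0, hb⟩ := irr_apply_one hβ
  have hπ1 : π 1 = (a : ℂ) := by rw [hcov.pi_one, ha]
  have hprod1 : (b : ℂ) * (a : ℂ) = (n : ℂ) := by
    have := congrFun hprod 1
    simp only [Pi.mul_apply, Function.comp_apply, map_one] at this
    rw [hb, hπ1, hn] at this
    exact this
  have hban : b * a = n := by exact_mod_cast hprod1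
  have hbn : b < n := by nlinarith
  refine ⟨b, hbn, Γ, instG, instF, hsolv, β, hβ, hqpΓ, hb, ?_⟩
  set Δ : Subgroup Γ := H.comap π₁ with hΔ
  have hΔtop : Δ ≠ ⊤ := by
    intro h
    apply hH
    rw [eq_top_iff]
    intro g _
    obtain ⟨γ, rfl⟩ := hcov.surj g
    have : γ ∈ Δ := by rw [h]; exact Subgroup.mem_top _
    exact this
  have := Fintype.ofFinite Δ
  let qH : Δ →* H := MonoidHom.codRestrict (π₁.comp Δ.subtype) H (fun x => x.2)
  have hqH : Function.Surjective qH := by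
    rintro ⟨h, hh⟩
    obtain ⟨γ, rfl⟩ := hcov.surj h
    exact ⟨⟨γ, hh⟩, rfl⟩
  have hϑ' : Cfsg.IsIrrCharacter Δ (ϑ ∘ qH) := isIrrCharacter_comp_of_surjective hϑ qH hqH
  have hπc := isCharacter_of_isIrrCharacter hcov.irr
  have hβc := isCharacter_of_isIrrCharacter hβ
  let f : L →* Δ := MonoidHom.codRestrict ι Δ (fun l => by
    show π₁ (ι l) ∈ H
    rw [hcov.sect]
    exact hLH l.2)
  have hπΔ : Cfsg.IsIrrCharacter Δ (fun x : Δ => π x) := by
    apply irr_of_comp_irr f (IsCharacter.restrict hπc Δ)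
    have : (fun x : Δ => π x) ∘ f = η := by
      funext l
      exact hcov.ext l
    rw [this]
    exact hη
  have hιn : ι.range.Normal := by
    constructor
    rintro _ ⟨n, rfl⟩ γ
    rw [hcov.conj γ n]
    exact ⟨_, rfl⟩
  set A : Subgroup Δ := ι.range.subgroupOf Δ with hA
  let f' : L →* A := MonoidHom.codRestrict f A (fun l => Subgroup.mem_subgroupOf.mpr ⟨l, rfl⟩)
  have hπA : Cfsg.IsIrrCharacter A (fun a : A => (fun x : Δ => π x) a) := by
    apply irr_of_comp_irr f' (IsCharacter.restrict (IsCharacter.restrict hπc Δ) _)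
    have : (fun a : A => (fun x : Δ => π x) a) ∘ f' = η := by
      funext l
      exact hcov.ext l
    rw [this]
    exact hη
  have hχcf := isClassFunction_of_isIrrCharacter hχ
  have hχH : Cfsg.classInner (fun h : H => χ h) ϑ ≠ 0 := by
    have hfr := frobenius_reciprocity H ϑ χ hχcf
    rw [hind, classInner_irr_self hχ] at hfr
    rw [← classInner_conj_symm, ← hfr]
    simp
  have hprodΔ : (fun x : Δ => β x) * (fun x : Δ => π x) = (fun h : H => χ h) ∘ qH := by
    funext x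
    exact congrFun hprod (x : Γ)
  have hinner : Cfsg.classInner ((fun x : Δ => β x) * (fun x : Δ => π x)) (ϑ ∘ qH) ≠ 0 := by
    rw [hprodΔ, classInner_comp_surj qH hqH]
    exact hχH
  have := Fintype.ofFinite (Cfsg.IrrCharacter Δ)
  have hβΔc : Cfsg.IsCharacter Δ (fun x : Δ => β x) := IsCharacter.restrict hβc Δ
  have hexp := class_fun_expand (fun x : Δ => β x) (isClassFunction_of_isCharacter hβΔc)
  have hexp2 : (fun x : Δ => β x) * (fun x : Δ => π x)
      = ∑ ψ : Cfsg.IrrCharacter Δ, Cfsg.classInner (fun x : Δ => β x) ψ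
          • ((ψ : Δ → ℂ) * (fun x : Δ => π x)) := by
    conv_lhs => rw [hexp]
    rw [Finset.sum_mul]
    apply Finset.sum_congr rfl
    intro ψ _
    funext x
    simp only [Pi.mul_apply, Pi.smul_apply, smul_eq_mul]
    ring
  rw [hexp2, classInner_sum_left] at hinner
  obtain ⟨ψ, -, hψ⟩ := Finset.exists_ne_zero_of_sum_ne_zero hinner
  rw [classInner_smul_left] at hψ
  have hψ1 : Cfsg.classInner (fun x : Δ => β x) ψ ≠ 0 := left_ne_zero_of_mul hψ
  have hψ2 : Cfsg.classInner ((ψ : Δ → ℂ) * (fun x : Δ => π x)) (ϑ ∘ qH) ≠ 0 :=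
    right_ne_zero_of_mul hψ
  have hψirr : Cfsg.IsIrrCharacter Δ (ψ : Δ → ℂ) := ψ.2
  have hkψ : ∀ a ∈ A, (ψ : Δ → ℂ) a = (ψ : Δ → ℂ) 1 := by
    intro a ha
    apply constituent_apply_eq hβΔc hψirr hψ1
    obtain ⟨l, hl⟩ := Subgroup.mem_subgroupOf.mp ha
    show β (a : Γ) = β ((1 : Δ) : Γ)
    rw [← hl, hβι l]
    rfl
  have hirrψπ := (gal_bij A hπΔ hπA).1 ψ hψirr hkψ
  have hψπ : (ψ : Δ → ℂ) * (fun x : Δ => π x) = ϑ ∘ qH := by
    by_contra hne
    exact hψ2 (classInner_irr_ne hirrψπ hϑ' hne)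
  obtain ⟨bi, hbi0, hbi⟩ := irr_apply_one hψirr
  obtain ⟨a₀, ha₀, hϑ1⟩ := irr_apply_one hϑ
  have hdeg1 : bi * a = a₀ := by
    have := congrFun hψπ 1
    simp only [Pi.mul_apply, Function.comp_apply, map_one, OneMemClass.coe_one] at this
    rw [hbi, hπ1, hϑ1] at this
    exact_mod_cast this
  have hχ1 : (n : ℂ) = (H.index : ℂ) * (a₀ : ℂ) := by
    rw [← hn, ← hind, indFun_apply_one, hϑ1]
  have hn' : n = H.index * a₀ := by exact_mod_cast hχ1
  have hbdeg : b = H.index * bi := by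
    have : b * a = (H.index * bi) * a := by
      rw [hban, hn', ← hdeg1]
      ring
    exact Nat.eq_of_mul_eq_mul_right (by omega) this
  have hfr := frobenius_reciprocity Δ (ψ : Δ → ℂ) β (isClassFunction_of_isIrrCharacter hβ)
  have hcon' : Cfsg.classInner (Cfsg.indFun Δ (ψ : Δ → ℂ)) β ≠ 0 := by
    rw [hfr, ← classInner_conj_symm]
    intro h0
    apply hψ1
    have := congrArg (starRingEnd ℂ) h0
    simpa using this
  have hΨ : Cfsg.IsCharacter Γ (Cfsg.indFun Δ (ψ : Δ → ℂ)) :=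
    indFun_isCharacter Δ (isCharacter_of_isIrrCharacter hψirr)
  have hdiff := IsCharacter.sub_irr hΨ hβ hcon'
  have hzero : Cfsg.indFun Δ (ψ : Δ → ℂ) - β = 0 := by
    apply char_eq_zero_of_apply_one hdiff
    rw [Pi.sub_apply, indFun_apply_one, hbi, hb, hΔ,
      Subgroup.index_comap_of_surjective H hcov.surj, hbdeg]
    push_cast
    ring
  exact ⟨Δ, ψ, hΔtop, isCharacter_of_isIrrCharacter hψirr, sub_eq_zero.mp hzero⟩

/-- Step II: the constituent of `χ` on the core is linear -/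
theorem berger_stepII {G : Type u} [Group G] [Fintype G] [Group.IsSolvable G] (L H : Subgroup G)
    [hL : L.Normal] (hLH : L ≤ H) (hcore : ∀ C : Subgroup G, C.Normal → C ≤ H → C ≤ L)
    (hmax : IsCoatom H) {χ : G → ℂ} (hχ : Cfsg.IsIrrCharacter G χ) (hqp : QP G χ)
    {ϑ : H → ℂ} (hϑ : Cfsg.IsIrrCharacter H ϑ) (hind : Cfsg.indFun H ϑ = χ)
    {η : L → ℂ} (hη : Cfsg.IsIrrCharacter L η) (e₁ : ℕ)
    (he₁ : (fun l : L => χ l) = (e₁ : ℂ) • η) (hη1 : η 1 = 1) (n : ℕ) (hn : χ 1 = (n : ℂ)) :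
    ∃ m < n, Counter.{u} m := by
  classical
  have := Fintype.ofFinite H
  have := Fintype.ofFinite L
  have hχcf := isClassFunction_of_isIrrCharacter hχ
  have hϑc := isCharacter_of_isIrrCharacter hϑ
  obtain ⟨a₀, ha₀, hϑ1⟩ := irr_apply_one hϑ
  have hχ1 : χ 1 = (H.index : ℂ) * (a₀ : ℂ) := by
    rw [← hind, indFun_apply_one, hϑ1]
  have hHtop : H ≠ ⊤ := hmax.1
  have hsolvL : Group.IsSolvable (G ⧸ L) := inferInstance
  by_cases hHn : H.Normal
  · exfalso
    obtain ⟨θ', e, hθ', he⟩ := hqp H hHn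
    have hfr := frobenius_reciprocity H ϑ χ hχcf
    rw [hind, classInner_irr_self hχ] at hfr
    have h1 : Cfsg.classInner ϑ ((e : ℂ) • θ') = 1 := by rw [← he]; exact hfr.symm
    rw [classInner_smul_right] at h1
    have hθeq : ϑ = θ' := by
      by_contra hne
      rw [classInner_irr_ne hϑ hθ' hne, mul_zero] at h1
      exact zero_ne_one h1
    rw [← hθeq, classInner_irr_self hϑ, mul_one] at h1
    have he1 : (e : ℂ) = 1 := by
      have := congrArg (starRingEnd ℂ) h1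
      simpa using this
    have h2 := congrFun he 1
    simp only [OneMemClass.coe_one, Pi.smul_apply, smul_eq_mul] at h2
    rw [he1, one_mul, ← hθeq, hχ1, hϑ1] at h2
    have h3 : H.index * a₀ = a₀ := by exact_mod_cast h2
    have h4 : H.index = 1 := by
      have : H.index * a₀ = 1 * a₀ := by rw [h3, one_mul]
      exact Nat.eq_of_mul_eq_mul_right ha₀ this
    exact hHtop (Subgroup.index_eq_one.mp h4)
  have hLH' : L < H := by
    refine lt_of_le_of_ne hLH ?_
    intro h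
    exact hHn (h ▸ hL)
  have hLtop : L ≠ ⊤ := fun h => hHtop (top_le_iff.mp (h ▸ hLH))
  obtain ⟨M, hMn, hLM, hmin⟩ := exists_min_above L hLtop
  obtain ⟨hab, p, k, hp, hk0, hMidx⟩ := chief_pow L M hLM hmin hsolvL
  haveI : Fact p.Prime := ⟨hp⟩
  obtain ⟨hsup, hinf⟩ := coatom_sup_inf L M H hLM hLH hmax hcore hab
  obtain ⟨K, hLK, hKH, hHK, hKidx⟩ := exists_normal_sub_p_or_p' p hp L H hLH' hsolvL
  have hfin : (∀ m ∈ M, ∀ k ∈ K, m * k * m⁻¹ ∈ K) → False := fun hMK =>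
    (not_le_of_gt hLK) (le_core_of_normalized L M H K hsup hcore hKH hHK hMK)
  rcases hKidx with hKp | hKc
  · exact (hfin (normalizes_of_p_case p L M H K hLM hmin hab hsup hLK.le hHK hKp
      ⟨k, hk0, hMidx⟩)).elim
  have := Fintype.ofFinite M
  obtain ⟨φ, f, hφ, hf⟩ := hqp M hMn
  have hφc := isCharacter_of_isIrrCharacter hφ
  have hidx : H.index = L.relIndex M := by
    rw [index_eq_relIndex_of_sup M H hsup, ← Subgroup.inf_relIndex_right, inf_comm, hinf]
  have hn' : n = p ^ k * a₀ := by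
    have : (n : ℂ) = ((p ^ k * a₀ : ℕ) : ℂ) := by
      rw [← hn, hχ1, hidx, hMidx]; push_cast; rfl
    exact_mod_cast this
  have hn0 : n ≠ 0 := by
    rw [hn']
    exact Nat.mul_ne_zero (pow_ne_zero k hp.ne_zero) ha₀.ne'
  have hχ1ne : χ 1 ≠ 0 := by
    rw [hn]
    exact_mod_cast hn0
  have hf0 : f ≠ 0 := by
    rintro rfl
    have := congrFun hf 1
    simp only [OneMemClass.coe_one, Nat.cast_zero, zero_smul, Pi.zero_apply] at this
    exact hχ1ne this
  have hf0' : (f : ℂ) ≠ 0 := by exact_mod_cast hf0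
  have hfM : ∀ m : M, χ m = (f : ℂ) * φ m := fun m => congrFun hf m
  have he₁L : ∀ l : L, χ l = (e₁ : ℂ) * η l := fun l => congrFun he₁ l
  have hφL : (fun l : L => φ ⟨l, hLM.le l.2⟩) = ((e₁ : ℂ) / (f : ℂ)) • η := by
    funext l
    have h1 := hfM ⟨l, hLM.le l.2⟩
    have h2 := he₁L l
    simp only [Pi.smul_apply, smul_eq_mul]
    rw [div_mul_eq_mul_div, eq_div_iff hf0', mul_comm, ← h1, ← h2]
  obtain ⟨t, ht⟩ := smul_irr_nat (IsCharacter.comp_hom hφc (Subgroup.inclusion hLM.le)) hη _ hφL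
  rw [ht] at hφL
  have hφL' : ∀ l : L, φ ⟨l, hLM.le l.2⟩ = (t : ℂ) * η l := fun l => congrFun hφL l
  have hφvan : ∀ m : M, (m : G) ∉ L → φ m = 0 := by
    intro m hm
    have h1 : χ m = 0 := by
      rw [← hind]
      apply indFun_eq_zero_of_not_conj
      intro x hx
      apply hm
      have h2 : x⁻¹ * (m : G) * x ∈ M := by
        have := hMn.conj_mem m m.2 x⁻¹
        rwa [inv_inv] at this
      have h3 : x⁻¹ * (m : G) * x ∈ L := by
        rw [← hinf]; exact ⟨h2, hx⟩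
      have h4 := hL.conj_mem _ h3 x
      have h5 : x * (x⁻¹ * (m : G) * x) * x⁻¹ = m := by group
      rwa [h5] at h4
    rw [hfM m] at h1
    exact (mul_eq_zero.mp h1).resolve_left hf0'
  have htt : t * t = p ^ k := by
    have n1 := classInner_irr_self hφ
    have n2 := classInner_irr_self hη
    rw [classInner_def] at n1 n2
    have hM0 : (Nat.card M : ℂ) ≠ 0 := card_ne_zero_complex M
    have hL0 : (Nat.card L : ℂ) ≠ 0 := card_ne_zero_complex L
    have s1 : ∑ m : M, φ m * conj (φ m) = (Nat.card M : ℂ) := by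
      field_simp at n1
      exact n1
    have s2 : ∑ l : L, η l * conj (η l) = (Nat.card L : ℂ) := by
      field_simp at n2
      exact n2
    have s3 := sum_of_vanish L M hLM.le (fun m : M => φ m * conj (φ m))
      (fun m hm => by rw [hφvan m hm, zero_mul])
    have s4 : ∑ l : L, φ ⟨l, hLM.le l.2⟩ * conj (φ ⟨l, hLM.le l.2⟩)
        = (t : ℂ) * (t : ℂ) * ∑ l : L, η l * conj (η l) := by
      rw [Finset.mul_sum]
      apply Finset.sum_congr rfl
      intro l _
      rw [hφL' l, map_mul, Complex.conj_natCast]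
      ring
    rw [s1, s4, s2] at s3
    have h1 : Nat.card M = t * t * Nat.card L := by exact_mod_cast s3
    have h2 : Nat.card L * L.relIndex M = Nat.card M := by
      have := Subgroup.relIndex_mul_relIndex ⊥ L M bot_le hLM.le
      rwa [Subgroup.relIndex_bot_left, Subgroup.relIndex_bot_left] at this
    rw [hMidx] at h2
    have h3 : 0 < Nat.card L := Nat.card_pos
    have h4 : Nat.card L * (t * t) = Nat.card L * p ^ k := by rw [h2, h1]; ring
    exact Nat.eq_of_mul_eq_mul_left h3 h4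
  have ht0 : t ≠ 0 := by
    rintro rfl
    have : p ^ k ≠ 0 := pow_ne_zero k hp.ne_zero
    omega
  have ht2 : 2 ≤ t := by
    by_contra hlt
    have ht1 : t = 1 := by omega
    rw [ht1] at htt
    have h1 : 1 < p ^ k := Nat.one_lt_pow hk0.ne' hp.one_lt
    omega
  have hφ1 : φ 1 = (t : ℂ) := by
    have := hφL' 1
    rw [hη1, mul_one] at this
    exact this
  -- the cover of `(G, M, φ)`
  obtain ⟨Γ, instG, instF, hsolvΓ, π₁, ι, π, β, hcov, hβ, hβι, hprod, hqpΓ⟩ :=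
    cover_setup M hφ hχ hqp f hf
  obtain ⟨b, hb0, hb⟩ := irr_apply_one hβ
  have hπ1 : π 1 = (t : ℂ) := by rw [hcov.pi_one, hφ1]
  have hbt : b * t = n := by
    have := congrFun hprod 1
    simp only [Pi.mul_apply, Function.comp_apply, map_one] at this
    rw [hb, hπ1, hn] at this
    exact_mod_cast this
  have hbn : b < n := by nlinarith
  have hbta : b = t * a₀ := by
    have h1 : b * t = (t * a₀) * t := by
      rw [hbt, hn', ← htt]; ring
    exact Nat.eq_of_mul_eq_mul_right (Nat.pos_of_ne_zero ht0) h1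
  refine ⟨b, hbn, ?_⟩
  set Δ : Subgroup Γ := H.comap π₁ with hΔ
  have hιn : ι.range.Normal := by
    constructor
    rintro _ ⟨n, rfl⟩ γ
    rw [hcov.conj γ n]
    exact ⟨_, rfl⟩
  have hsurjΔ : ∀ γ : Γ, ∃ y ∈ Δ, ∃ a ∈ ι.range, γ = y * a := by
    intro γ
    have hγ : π₁ γ ∈ H ⊔ M := by rw [sup_comm, hsup]; exact Subgroup.mem_top _
    rw [← SetLike.mem_coe, Subgroup.mul_normal, Set.mem_mul] at hγ
    obtain ⟨h, hh, m, hm, hhm⟩ := hγ
    refine ⟨γ * (ι ⟨m, hm⟩)⁻¹, ?_, ι ⟨m, hm⟩, ⟨_, rfl⟩, by group⟩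
    show π₁ (γ * (ι ⟨m, hm⟩)⁻¹) ∈ H
    rw [map_mul, map_inv, hcov.sect, ← hhm]
    simpa using hh
  obtain ⟨hβΔ, hqpΔ⟩ := qp_sub ι.range Δ hsurjΔ hβ (by rintro _ ⟨m, rfl⟩; exact hβι m) hqpΓ
  have := Fintype.ofFinite Δ
  suffices hex : ∃ (T : Subgroup Δ) (ρ : T → ℂ), T ≠ ⊤ ∧ Cfsg.IsCharacter T ρ ∧
      Cfsg.indFun T ρ = fun x : Δ => β x by
    exact ⟨Δ, inferInstance, inferInstance, inferInstance, fun x : Δ => β x, hβΔ, hqpΔ,
      by simpa using hb, hex⟩
  let qH : Δ →* H := MonoidHom.codRestrict (π₁.comp Δ.subtype) H (fun x => x.2)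
  have hqH : Function.Surjective qH := by
    rintro ⟨h, hh⟩
    obtain ⟨γ, rfl⟩ := hcov.surj h
    exact ⟨⟨γ, hh⟩, rfl⟩
  have hϑ' : Cfsg.IsIrrCharacter Δ (ϑ ∘ qH) := isIrrCharacter_comp_of_surjective hϑ qH hqH
  have hϑ'c := isCharacter_of_isIrrCharacter hϑ'
  have hπc := isCharacter_of_isIrrCharacter hcov.irr
  set τ : Δ → ℂ := fun x : Δ => π x with hτ
  have hτc : Cfsg.IsCharacter Δ τ := IsCharacter.restrict hπc Δ
  have hτ1 : τ 1 = (t : ℂ) := hπ1
  have hχH : Cfsg.classInner (fun h : H => χ h) ϑ ≠ 0 := by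
    have hfr := frobenius_reciprocity H ϑ χ hχcf
    rw [hind, classInner_irr_self hχ] at hfr
    rw [← classInner_conj_symm, ← hfr]
    simp
  have hprodΔ : (fun x : Δ => β x) * τ = (fun h : H => χ h) ∘ qH := by
    funext x
    exact congrFun hprod (x : Γ)
  have hinner : Cfsg.classInner ((fun x : Δ => β x) * τ) (ϑ ∘ qH) ≠ 0 := by
    rw [hprodΔ, classInner_comp_surj qH hqH]
    exact hχH
  -- the product trick
  have hcτc : Cfsg.IsCharacter Δ ((starRingEnd ℂ) ∘ τ) :=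
    Cfsg.Agent.Lib.Helper12.isCharacter_comp_ringHom hτc (starRingEnd ℂ)
  have hΨc : Cfsg.IsCharacter Δ ((ϑ ∘ qH) * ((starRingEnd ℂ) ∘ τ)) := IsCharacter.mul hϑ'c hcτc
  have hΨβ : Cfsg.classInner ((ϑ ∘ qH) * ((starRingEnd ℂ) ∘ τ)) (fun x : Δ => β x) ≠ 0 := by
    have e1 : Cfsg.classInner ((ϑ ∘ qH) * ((starRingEnd ℂ) ∘ τ)) (fun x : Δ => β x)
        = Cfsg.classInner (ϑ ∘ qH) ((fun x : Δ => β x) * τ) := by
      rw [classInner_def, classInner_def]
      congr 1
      apply Finset.sum_congr rfl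
      intro x _
      simp only [Pi.mul_apply, Function.comp_apply, map_mul]
      ring
    rw [e1, ← classInner_conj_symm]
    intro h0
    apply hinner
    have := congrArg (starRingEnd ℂ) h0
    simpa using this
  have hdiff := IsCharacter.sub_irr hΨc hβΔ hΨβ
  have hΨ : (ϑ ∘ qH) * ((starRingEnd ℂ) ∘ τ) = fun x : Δ => β x := by
    have hz : (ϑ ∘ qH) * ((starRingEnd ℂ) ∘ τ) - (fun x : Δ => β x) = 0 := by
      apply char_eq_zero_of_apply_one hdiff
      simp only [Pi.sub_apply, Pi.mul_apply, Function.comp_apply, map_one, OneMemClass.coe_one]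
      rw [hϑ1, hτ1, hb, hbta, Complex.conj_natCast]
      push_cast
      ring
    exact sub_eq_zero.mp hz
  -- `τ` is irreducible
  have hτ0 : τ ≠ 0 := by
    intro h0
    have := congrFun h0 1
    rw [hτ1] at this
    simp only [Pi.zero_apply] at this
    exact ht0 (by exact_mod_cast this)
  obtain ⟨τ₁, hτ₁, hτcon⟩ := exists_irr_constituent hτc hτ0
  have hτ₂ := IsCharacter.sub_irr hτc hτ₁ hτcon
  have hsplit : (fun x : Δ => β x) = (ϑ ∘ qH) * ((starRingEnd ℂ) ∘ τ₁)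
      + (ϑ ∘ qH) * ((starRingEnd ℂ) ∘ (τ - τ₁)) := by
    rw [← hΨ]
    funext x
    simp only [Pi.mul_apply, Pi.add_apply, Function.comp_apply, Pi.sub_apply, map_sub]
    ring
  obtain ⟨b₁, hb₁0, hb₁⟩ := irr_apply_one hτ₁
  have hX0 : (ϑ ∘ qH) * ((starRingEnd ℂ) ∘ τ₁) ≠ 0 := by
    intro h0
    have := congrFun h0 1
    simp only [Pi.mul_apply, Function.comp_apply, map_one, Pi.zero_apply] at this
    rw [hϑ1, hb₁, Complex.conj_natCast] at this
    have h2 : a₀ * b₁ = 0 := by exact_mod_cast this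
    have h3 : a₀ * b₁ ≠ 0 := Nat.mul_ne_zero ha₀.ne' hb₁0.ne'
    exact h3 h2
  have hY := split_irr hβΔ
    (IsCharacter.mul hϑ'c (Cfsg.Agent.Lib.Helper12.isCharacter_comp_ringHom
      (isCharacter_of_isIrrCharacter hτ₁) (starRingEnd ℂ)))
    (IsCharacter.mul hϑ'c (Cfsg.Agent.Lib.Helper12.isCharacter_comp_ringHom hτ₂ (starRingEnd ℂ)))
    hsplit hX0
  have hτ₂0 : τ - τ₁ = 0 := by
    apply char_eq_zero_of_apply_one hτ₂
    have := congrFun hY 1
    simp only [Pi.mul_apply, Function.comp_apply, map_one, Pi.zero_apply] at this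
    rw [hϑ1] at this
    have ha₀' : (a₀ : ℂ) ≠ 0 := by exact_mod_cast ha₀.ne'
    have h2 := (mul_eq_zero.mp this).resolve_left ha₀'
    have h3 := congrArg (starRingEnd ℂ) h2
    simpa using h3
  have hτirr : Cfsg.IsIrrCharacter Δ τ := by
    rw [sub_eq_zero.mp hτ₂0]
    exact hτ₁
  -- the normal subgroup `K̃` of `Δ`
  set Kt : Subgroup Δ := (K.comap π₁).subgroupOf Δ with hKt
  have hKtmem : ∀ x : Δ, x ∈ Kt ↔ π₁ (x : Γ) ∈ K := fun x => Iff.rfl
  have hKtn : Kt.Normal := by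
    constructor
    intro x hx y
    rw [hKtmem] at hx ⊢
    have e : ((y * x * y⁻¹ : Δ) : Γ) = (y : Γ) * (x : Γ) * (y : Γ)⁻¹ := rfl
    rw [e, map_mul, map_mul, map_inv]
    exact hHK _ y.2 _ hx
  have := Fintype.ofFinite Kt
  have hτK : Cfsg.IsCharacter Kt (fun x : Kt => τ x) := IsCharacter.restrict hτc Kt
  have hτK0 : (fun x : Kt => τ x) ≠ 0 := by
    intro h0
    have := congrFun h0 1
    simp only [OneMemClass.coe_one, Pi.zero_apply] at this
    rw [hτ1] at this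
    exact ht0 (by exact_mod_cast this)
  obtain ⟨σ, hσ, hσcon⟩ := exists_irr_constituent hτK hτK0
  have := Fintype.ofFinite (inertia Kt σ)
  obtain ⟨ψ₀, hψ₀, hindT⟩ := exists_clifford_correspondent Kt hτirr hσ hσcon
  by_cases hT : inertia Kt σ = ⊤
  · exfalso
    -- `τ` restricted to `K̃` is homogeneous
    obtain ⟨e₂, he₂0, he₂⟩ := clifford_sum Kt hτirr hσ hσcon
    have himg : Finset.univ.image (fun k : Δ => conjFun Kt σ k) = {σ} := by
      ext ψ
      simp only [Finset.mem_image, Finset.mem_univ, true_and, Finset.mem_singleton]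
      constructor
      · rintro ⟨k, rfl⟩
        have : k ∈ inertia Kt σ := by rw [hT]; exact Subgroup.mem_top _
        exact (mem_inertia Kt σ k).mp this
      · intro h
        rw [h]
        exact ⟨1, (mem_inertia Kt σ 1).mp (Subgroup.one_mem _)⟩
    rw [himg, Finset.sum_singleton] at he₂
    have hτσ : ∀ x : Kt, τ x = (e₂ : ℂ) * σ x := fun x => congrFun he₂ x
    obtain ⟨s, hs0, hs⟩ := irr_apply_one hσ
    have hes : e₂ * s = t := by
      have := hτσ 1
      simp only [OneMemClass.coe_one] at this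
      rw [hτ1, hs] at this
      exact_mod_cast this.symm
    -- elements over `L` act as scalars
    have hscal : ∀ γ : Γ, π₁ γ ∈ L → ∃ w : ℂ, ‖w‖ = 1 ∧ π γ = w * π 1 := by
      intro γ hγ
      have hzk : γ * (ι ⟨π₁ γ, hLM.le hγ⟩)⁻¹ ∈ π₁.ker := by
        rw [MonoidHom.mem_ker, map_mul, map_inv, hcov.sect]
        exact mul_inv_cancel _
      obtain ⟨-, hν⟩ := hcov.nu_spec hφ hzk
      have hνn : ‖hcov.nu (γ * (ι ⟨π₁ γ, hLM.le hγ⟩)⁻¹)‖ = 1 :=
        Complex.norm_eq_one_of_pow_eq_one (hcov.nu_card hφ hzk) Nat.card_pos.ne'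
      refine ⟨hcov.nu (γ * (ι ⟨π₁ γ, hLM.le hγ⟩)⁻¹) * η ⟨π₁ γ, hγ⟩, ?_, ?_⟩
      · rw [norm_mul, hνn, linear_norm hη hη1, mul_one]
      · have h1 := hν (ι ⟨π₁ γ, hLM.le hγ⟩)
        rw [inv_mul_cancel_right] at h1
        have h2 : φ ⟨π₁ γ, hLM.le hγ⟩ = (t : ℂ) * η ⟨π₁ γ, hγ⟩ := hφL' ⟨π₁ γ, hγ⟩
        rw [h1, hcov.ext, hπ1, h2]
        ring
    -- the degree of `σ` divides `[K:L]`
    have hsdvd : s ∣ L.relIndex K := by
      obtain ⟨ns, ρσ, hρσ, hρσeq⟩ := hσ
      haveI : ρσ.IsIrreducible := hρσ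
      have hns : Module.finrank ℂ (Fin ns → ℂ) = s := by
        have h1 : ρσ.character 1 = (s : ℂ) := by rw [hρσeq, hs]
        rw [Representation.char_one] at h1
        exact_mod_cast h1
      let ρK : Kt →* G := π₁.comp (Δ.subtype.comp Kt.subtype)
      have hZ : ∀ z ∈ L.comap ρK, ∃ c : ℂ,
          ρσ z = c • (LinearMap.id : (Fin ns → ℂ) →ₗ[ℂ] (Fin ns → ℂ)) := by
        intro z hz
        obtain ⟨w, hw, hwπ⟩ := hscal ((z : Δ) : Γ) hz
        have h1 : σ z = w * σ 1 :=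
          constituent_apply_scalar hτK ⟨ns, ρσ, hρσ, hρσeq⟩ hσcon hw hwπ
        apply (norm_char_eq_iff ρσ z).mp
        rw [hρσeq, h1, norm_mul, hw, one_mul, hs, hns]
        simp
      have hdvd := degree_dvd_index_of_scalar ρσ (L.comap ρK) hZ
      have hrange : ρK.range = K := by
        ext g
        constructor
        · rintro ⟨x, rfl⟩
          exact x.2
        · intro hg
          obtain ⟨γ, rfl⟩ := hcov.surj g
          exact ⟨⟨⟨γ, hKH hg⟩, hg⟩, rfl⟩
      rw [Subgroup.index_comap, hrange, hns] at hdvd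
      exact hdvd
    have hs1 : s = 1 := by
      have h1 : s ∣ p ^ k := by
        rw [← htt, ← hes]
        exact Dvd.dvd.mul_right (Dvd.intro_left e₂ rfl) _
      exact Nat.eq_one_of_dvd_coprimes (Nat.Coprime.pow_right k hKc) hsdvd h1
    have he₂t : e₂ = t := by rw [← hes, hs1, mul_one]
    have hσ1 : σ 1 = 1 := by rw [hs, hs1]; simp
    obtain ⟨nπ, R, hR, hReq⟩ := hcov.irr
    have hnπ : (Module.finrank ℂ (Fin nπ → ℂ) : ℂ) = (t : ℂ) := by
      rw [← hπ1, ← hReq, Representation.char_one]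
    have hnπ' : Module.finrank ℂ (Fin nπ → ℂ) = t := by exact_mod_cast hnπ
    apply hfin
    intro m hm c hc
    obtain ⟨γ, hγ⟩ := hcov.surj c
    have hγΔ : γ ∈ Δ := by
      show π₁ γ ∈ H
      rw [hγ]; exact hKH hc
    have hγK : (⟨γ, hγΔ⟩ : Δ) ∈ Kt := by
      rw [hKtmem]
      show π₁ γ ∈ K
      rw [hγ]; exact hc
    have hnorm : ‖R.character γ‖ = (Module.finrank ℂ (Fin nπ → ℂ) : ℝ) := by
      have h1 := hτσ ⟨⟨γ, hγΔ⟩, hγK⟩
      have h3 := linear_norm hσ hσ1 ⟨⟨γ, hγΔ⟩, hγK⟩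
      have h4 : ‖π γ‖ = (t : ℝ) := by
        show ‖τ ⟨γ, hγΔ⟩‖ = (t : ℝ)
        rw [h1, norm_mul, h3, mul_one, he₂t]
        simp
      rw [hReq, h4, hnπ']
    obtain ⟨ω, hω⟩ := (norm_char_eq_iff R γ).mp hnorm
    have hcomm : ∀ x : Γ, R (γ * x * γ⁻¹) = R x := by
      intro x
      have h1 : R γ * R x = R x * R γ := by
        rw [hω]
        ext v
        simp
      rw [map_mul, map_mul, h1, mul_assoc, ← map_mul, mul_inv_cancel, map_one, mul_one]
    have hval : π (γ * ι ⟨m, hm⟩ * γ⁻¹ * (ι ⟨m, hm⟩)⁻¹) = π 1 := by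
      rw [← hReq]
      show LinearMap.trace ℂ _ (R (γ * ι ⟨m, hm⟩ * γ⁻¹ * (ι ⟨m, hm⟩)⁻¹))
        = LinearMap.trace ℂ _ (R 1)
      rw [map_mul, hcomm, ← map_mul, mul_inv_cancel]
    have hu : γ * ι ⟨m, hm⟩ * γ⁻¹ * (ι ⟨m, hm⟩)⁻¹
        = ι ⟨c * m * c⁻¹ * m⁻¹, M.mul_mem (hMn.conj_mem m hm c) (M.inv_mem hm)⟩ := by
      rw [hcov.conj γ ⟨m, hm⟩, ← map_inv ι ⟨m, hm⟩, ← map_mul ι]
      congr 1
      apply Subtype.ext
      simp [hγ]
    rw [hu, hcov.ext, hπ1] at hval
    have huL : c * m * c⁻¹ * m⁻¹ ∈ L := by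
      by_contra hnot
      have := hφvan ⟨c * m * c⁻¹ * m⁻¹, M.mul_mem (hMn.conj_mem m hm c) (M.inv_mem hm)⟩ hnot
      rw [hval] at this
      exact ht0 (by exact_mod_cast this)
    have h3 : m * c * m⁻¹ = (c * m * c⁻¹ * m⁻¹)⁻¹ * c := by group
    rw [h3]
    exact K.mul_mem (hLK.le (L.inv_mem huL)) hc
  · refine ⟨inertia Kt σ, (fun x : inertia Kt σ => (ϑ ∘ qH) x) * ((starRingEnd ℂ) ∘ ψ₀), hT,
      ?_, ?_⟩
    · exact IsCharacter.mul (IsCharacter.restrict hϑ'c _)
        (Cfsg.Agent.Lib.Helper12.isCharacter_comp_ringHom (isCharacter_of_isIrrCharacter hψ₀)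
          (starRingEnd ℂ))
    · have h1 := Cfsg.Agent.S0856.indFun_mul (inertia Kt σ) ((starRingEnd ℂ) ∘ ψ₀)
        (fun x : inertia Kt σ => (ϑ ∘ qH) x) (ϑ ∘ qH) (isClassFunction_of_isIrrCharacter hϑ')
        (fun n => rfl)
      rw [mul_comm, h1, indFun_conj, hindT, ← hΨ, mul_comm]

/-- a counterexample yields a counterexample of smaller degree -/
theorem counter_descent (n : ℕ) (hC : Counter.{u} n) : ∃ m < n, Counter.{u} m := by
  classical
  obtain ⟨G, instG, instF, hsolv, χ, hχ, hqp, hn, K, ψ, hK, hψ, hind⟩ := hC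
  obtain ⟨H, hH, hKH⟩ := (eq_top_or_exists_le_coatom K).resolve_left hK
  have := Fintype.ofFinite H
  set ϑ : H → ℂ := Cfsg.indFun (K.subgroupOf H)
    (fun x => ψ ⟨(x : H), Subgroup.mem_subgroupOf.mp x.2⟩) with hϑdef
  have hindH : Cfsg.indFun H ϑ = χ := by
    rw [hϑdef, Cfsg.Agent.S1490.indFun_trans K H hKH ψ, hind]
  let g₁ : K.subgroupOf H →* K := MonoidHom.codRestrict (H.subtype.comp (K.subgroupOf H).subtype) K
    (fun y => Subgroup.mem_subgroupOf.mp y.2)
  have hϑc : Cfsg.IsCharacter H ϑ := indFun_isCharacter _ (IsCharacter.comp_hom hψ g₁)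
  have hϑ : Cfsg.IsIrrCharacter H ϑ := irr_of_indFun_irr H hϑc (by rw [hindH]; exact hχ)
  set L : Subgroup G := H.normalCore with hLdef
  have hLn : L.Normal := Subgroup.normalCore_normal H
  have hLH : L ≤ H := Subgroup.normalCore_le H
  have hcore : ∀ C : Subgroup G, C.Normal → C ≤ H → C ≤ L := by
    intro C hC hCH c hc b
    exact hCH (hC.conj_mem c hc b)
  obtain ⟨η, e, hη, he⟩ := hqp L hLn
  obtain ⟨a, ha0, ha⟩ := irr_apply_one hη
  by_cases ha1 : a = 1
  · exact berger_stepII L H hLH hcore hH hχ hqp hϑ hindH hη e he (by rw [ha, ha1]; simp) n hn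
  · exact berger_stepI L H hLH hH.1 hχ hqp hϑ hindH hη e he n a hn ha (by omega)

/-- Berger's theorem: there is no counterexample -/
theorem no_counter : ∀ n : ℕ, ¬ Counter.{u} n := by
  intro n
  induction n using Nat.strong_induction_on with
  | _ n ih =>
    intro hC
    obtain ⟨m, hm, hCm⟩ := counter_descent n hC
    exact ih m hm hCm

end Cfsg.Agent.Lib.Helper2
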