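import Mathlib
import Cfsg.Prelude
import Cfsg.Agent.Lib.Helper2.ExtraIso

set_option autoImplicit false

namespace Cfsg.Agent.Lib.Helper2

open Subgroup

namespace WG

variable {E : Type*} [Group E] {z : E}

theorem pow_cases (h : WG 2 E z) (k : ℕ) : z ^ k = 1 ∨ z ^ k = z := by
  rcases Nat.even_or_odd' k with ⟨m, rfl | rfl⟩
  · left
    rw [pow_mul, h.zp, one_pow]
  · right
    rw [pow_succ, pow_mul, h.zp, one_pow, one_mul]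

theorem sq (h : WG 2 E z) (x : E) : x ^ 2 = 1 ∨ x ^ 2 = z := by
  obtain ⟨k, hk⟩ := h.pow x
  rw [hk]
  exact h.pow_cases k

theorem inv_z (h : WG 2 E z) : z⁻¹ = z := by
  rw [inv_eq_iff_mul_eq_one, ← pow_two, h.zp]

theorem sq_mul (h : WG 2 E z) {x y : E} (hxy : x * y * x⁻¹ * y⁻¹ = z) :
    (x * y) ^ 2 = x ^ 2 * y ^ 2 * z⁻¹ := by
  have h1 := h.rel hxy
  have h2 : y * z⁻¹ = z⁻¹ * y := ((h.zc y).inv_left).eq.symm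
  calc (x * y) ^ 2 = x * (y * x) * y := by rw [pow_two]; simp only [mul_assoc]
    _ = x * (x * y * z⁻¹) * y := by rw [h1]
    _ = x * x * y * (z⁻¹ * y) := by simp only [mul_assoc]
    _ = x * x * y * (y * z⁻¹) := by rw [h2]
    _ = _ := by rw [pow_two, pow_two]; simp only [mul_assoc]

theorem swap_pair (h : WG 2 E z) {x y : E} (hxy : x * y * x⁻¹ * y⁻¹ = z) :
    y * x * y⁻¹ * x⁻¹ = z := by
  have := h.commHom_yx hxy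
  rw [h.inv_z] at this
  exact this

theorem pair_aux (h : WG 2 E z) {x y : E} (hxy : x * y * x⁻¹ * y⁻¹ = z) (hx : x ^ 2 = 1)
    (hy : y ^ 2 = z) : x * (x * y) * x⁻¹ * (x * y)⁻¹ = z ∧ (x * y) ^ 2 = 1 := by
  constructor
  · have : h.commHom x (x * y) = z := by
      rw [map_mul, h.commHom_self, one_mul]
      exact hxy
    exact this
  · rw [h.sq_mul hxy, hx, hy, one_mul, mul_inv_cancel]

theorem pair_type (h : WG 2 E z) {x y : E} (hxy : x * y * x⁻¹ * y⁻¹ = z) :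
    ∃ x' y' : E, x' * y' * x'⁻¹ * y'⁻¹ = z ∧
      ((x' ^ 2 = 1 ∧ y' ^ 2 = 1) ∨ (x' ^ 2 = z ∧ y' ^ 2 = z)) := by
  rcases h.sq x with hx | hx <;> rcases h.sq y with hy | hy
  · exact ⟨x, y, hxy, Or.inl ⟨hx, hy⟩⟩
  · obtain ⟨k1, k2⟩ := h.pair_aux hxy hx hy
    exact ⟨x, x * y, k1, Or.inl ⟨hx, k2⟩⟩
  · obtain ⟨k1, k2⟩ := h.pair_aux (h.swap_pair hxy) hy hx
    exact ⟨y, y * x, k1, Or.inl ⟨hy, k2⟩⟩
  · exact ⟨x, y, hxy, Or.inr ⟨hx, hy⟩⟩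

theorem two_dvd_card (h : WG 2 E z) : 2 ∣ Nat.card E := by
  have := orderOf_dvd_natCard z
  rw [h.orderOf_eq] at this
  exact this

/-- If the order is larger than `8`, there is a "dihedral" pair. -/
theorem exists_dihedral_pair (h : WG 2 E z) [Finite E] (hcard : 8 < Nat.card E) :
    ∃ x y : E, x * y * x⁻¹ * y⁻¹ = z ∧ x ^ 2 = 1 ∧ y ^ 2 = 1 := by
  have hnc : ¬ ∀ g g' : E, Commute g g' := by
    intro hc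
    have := h.card_of_comm hc
    omega
  obtain ⟨x₀, y₀, hxy₀⟩ := h.exists_pair hnc
  obtain ⟨x, y, hxy, ht | ht⟩ := h.pair_type hxy₀
  · exact ⟨x, y, hxy, ht.1, ht.2⟩
  · have hC := h.sub hxy
    have k := h.card_eq hxy
    have hncC : ¬ ∀ g g' : ↥(centralizer ({x, y} : Set E)), Commute g g' := by
      intro hc
      have := hC.card_of_comm hc
      rw [this] at k
      omega
    obtain ⟨x₁, y₁, hxy₁⟩ := hC.exists_pair hncC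
    obtain ⟨x', y', hxy', ht' | ht'⟩ := hC.pair_type hxy₁
    · exact ⟨x', y', congrArg Subtype.val hxy', congrArg Subtype.val ht'.1,
        congrArg Subtype.val ht'.2⟩
    · have hx'2 : (x' : E) ^ 2 = z := congrArg Subtype.val ht'.1
      have cx : Commute x (x' : E) := ((mem_cen_iff x y x').1 x'.2).1
      have cy : Commute y (x' : E) := ((mem_cen_iff x y x').1 x'.2).2
      refine ⟨x * x', y * x', ?_, ?_, ?_⟩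
      · have : h.commHom (x * x') (y * x') = z := by
          rw [map_mul, h.commHom_swap (x * x') y, h.commHom_swap (x * x') x', map_mul, map_mul,
            h.commHom_yx hxy, h.commHom_self, (h.commHom_eq_one_iff y x').2 cy,
            (h.commHom_eq_one_iff (x' : E) x).2 cx.symm]
          simp
        exact this
      · rw [cx.mul_pow, ht.1, hx'2, ← pow_two, h.zp]
      · rw [cy.mul_pow, ht.2, hx'2, ← pow_two, h.zp]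

theorem map_z {E₁ : Type*} {E₂ : Type*} [Group E₁] [Group E₂] {z₁ : E₁} {z₂ : E₂}
    (h₁ : WG 2 E₁ z₁) (h₂ : WG 2 E₂ z₂) (ψ : E₁ ≃* E₂) : ψ z₁ = z₂ := by
  have hc : ∀ g' : E₂, Commute (ψ z₁) g' := by
    intro g'
    have := (h₁.zc (ψ.symm g')).map ψ
    simpa using this
  obtain ⟨k, hk⟩ := h₂.cent _ hc
  rcases h₂.pow_cases k with h | h
  · rw [h] at hk
    exact absurd ((map_eq_one_iff ψ ψ.injective).1 hk) h₁.z1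
  · rw [hk, h]

/-- Matching pairs of the same type and isomorphic centralizers give an isomorphism. -/
theorem iso_of_pairs {E₁ : Type*} {E₂ : Type*} [Group E₁] [Group E₂] {z₁ : E₁} {z₂ : E₂}
    (h₁ : WG 2 E₁ z₁) (h₂ : WG 2 E₂ z₂) {x₁ y₁ : E₁} {x₂ y₂ : E₂}
    (hxy₁ : x₁ * y₁ * x₁⁻¹ * y₁⁻¹ = z₁) (hxy₂ : x₂ * y₂ * x₂⁻¹ * y₂⁻¹ = z₂)
    (ht : (x₁ ^ 2 = 1 ∧ y₁ ^ 2 = 1 ∧ x₂ ^ 2 = 1 ∧ y₂ ^ 2 = 1) ∨
      (x₁ ^ 2 = z₁ ∧ y₁ ^ 2 = z₁ ∧ x₂ ^ 2 = z₂ ∧ y₂ ^ 2 = z₂))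
    (ψ : ↥(centralizer ({x₁, y₁} : Set E₁)) ≃* ↥(centralizer ({x₂, y₂} : Set E₂))) :
    Nonempty (E₁ ≃* E₂) := by
  have hψ : ψ ⟨z₁, h₁.z_mem_cen x₁ y₁⟩ = ⟨z₂, h₂.z_mem_cen x₂ y₂⟩ :=
    map_z (h₁.sub hxy₁) (h₂.sub hxy₂) ψ
  rcases ht with ⟨a1, a2, a3, a4⟩ | ⟨a1, a2, a3, a4⟩
  · obtain ⟨φ, -⟩ := ext_iso 2 (centralizer ({x₁, y₁} : Set E₁))
      (centralizer ({x₂, y₂} : Set E₂)) ψ x₁ y₁ x₂ y₂
      (⟨z₁, h₁.z_mem_cen x₁ y₁⟩⁻¹) 1 1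
      (fun c hc => ((WG.mem_cen_iff x₁ y₁ c).1 hc).1)
      (fun c hc => ((WG.mem_cen_iff x₁ y₁ c).1 hc).2)
      (fun c hc => ((WG.mem_cen_iff x₂ y₂ c).1 hc).1)
      (fun c hc => ((WG.mem_cen_iff x₂ y₂ c).1 hc).2)
      (h₁.rel hxy₁) (by rw [map_inv, hψ]; exact h₂.rel hxy₂)
      a1 (by rw [map_one]; exact a3) a2 (by rw [map_one]; exact a4)
      (h₁.ind hxy₁) (h₂.ind hxy₂) (h₁.gen hxy₁) (h₂.gen hxy₂)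
    exact ⟨φ⟩
  · obtain ⟨φ, -⟩ := ext_iso 2 (centralizer ({x₁, y₁} : Set E₁))
      (centralizer ({x₂, y₂} : Set E₂)) ψ x₁ y₁ x₂ y₂
      (⟨z₁, h₁.z_mem_cen x₁ y₁⟩⁻¹) ⟨z₁, h₁.z_mem_cen x₁ y₁⟩ ⟨z₁, h₁.z_mem_cen x₁ y₁⟩
      (fun c hc => ((WG.mem_cen_iff x₁ y₁ c).1 hc).1)
      (fun c hc => ((WG.mem_cen_iff x₁ y₁ c).1 hc).2)
      (fun c hc => ((WG.mem_cen_iff x₂ y₂ c).1 hc).1)
      (fun c hc => ((WG.mem_cen_iff x₂ y₂ c).1 hc).2)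
      (h₁.rel hxy₁) (by rw [map_inv, hψ]; exact h₂.rel hxy₂)
      a1 (by rw [hψ]; exact a3) a2 (by rw [hψ]; exact a4)
      (h₁.ind hxy₁) (h₂.ind hxy₂) (h₁.gen hxy₁) (h₂.gen hxy₂)
    exact ⟨φ⟩

/-- Order `8`: same type of pair gives an isomorphism. -/
theorem iso8 {E₁ : Type*} {E₂ : Type*} [Group E₁] [Group E₂] [Finite E₁] [Finite E₂]
    {z₁ : E₁} {z₂ : E₂}
    (h₁ : WG 2 E₁ z₁) (h₂ : WG 2 E₂ z₂) (hc₁ : Nat.card E₁ = 8) (hc₂ : Nat.card E₂ = 8)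
    {x₁ y₁ : E₁} {x₂ y₂ : E₂}
    (hxy₁ : x₁ * y₁ * x₁⁻¹ * y₁⁻¹ = z₁) (hxy₂ : x₂ * y₂ * x₂⁻¹ * y₂⁻¹ = z₂)
    (ht : (x₁ ^ 2 = 1 ∧ y₁ ^ 2 = 1 ∧ x₂ ^ 2 = 1 ∧ y₂ ^ 2 = 1) ∨
      (x₁ ^ 2 = z₁ ∧ y₁ ^ 2 = z₁ ∧ x₂ ^ 2 = z₂ ∧ y₂ ^ 2 = z₂)) :
    Nonempty (E₁ ≃* E₂) := by
  have k₁ := h₁.card_eq hxy₁
  have k₂ := h₂.card_eq hxy₂
  have c₁ : Nat.card ↥(centralizer ({x₁, y₁} : Set E₁)) = 2 := by omega
  have c₂ : Nat.card ↥(centralizer ({x₂, y₂} : Set E₂)) = 2 := by omega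
  obtain ⟨ψ, -⟩ := WG.iso_of_comm (h₁.sub hxy₁) (h₂.sub hxy₂)
    ((h₁.sub hxy₁).comm_of_card c₁) ((h₂.sub hxy₂).comm_of_card c₂)
  exact iso_of_pairs h₁ h₂ hxy₁ hxy₂ ht ψ

end WG

universe u v w

/-- Among three `WG 2`-groups of equal order, two are isomorphic. -/
theorem wg_two_of_three : ∀ n : ℕ, ∀ (E₁ : Type u) (E₂ : Type v) (E₃ : Type w)
    [Group E₁] [Group E₂] [Group E₃] [Finite E₁] [Finite E₂] [Finite E₃]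
    (z₁ : E₁) (z₂ : E₂) (z₃ : E₃), WG 2 E₁ z₁ → WG 2 E₂ z₂ → WG 2 E₃ z₃ →
    Nat.card E₁ = Nat.card E₂ → Nat.card E₂ = Nat.card E₃ → Nat.card E₁ ≤ n →
    Nonempty (E₁ ≃* E₂) ∨ Nonempty (E₂ ≃* E₃) ∨ Nonempty (E₁ ≃* E₃) := by
  intro n
  induction n with
  | zero =>
    intro E₁ E₂ E₃ _ _ _ _ _ _ z₁ z₂ z₃ h₁ h₂ h₃ h12 h23 hn
    have := Nat.card_pos (α := E₁)
    omega
  | succ n ih =>
    intro E₁ E₂ E₃ _ _ _ _ _ _ z₁ z₂ z₃ h₁ h₂ h₃ h12 h23 hn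
    by_cases hc₁ : ∀ g g' : E₁, Commute g g'
    · have k1 := h₁.card_of_comm hc₁
      have hc₂ := h₂.comm_of_card (h12 ▸ k1)
      obtain ⟨φ, -⟩ := WG.iso_of_comm h₁ h₂ hc₁ hc₂
      exact Or.inl ⟨φ⟩
    · have hc₂ : ¬ ∀ g g' : E₂, Commute g g' := fun hc₂ =>
        hc₁ (h₁.comm_of_card (by rw [h12, h₂.card_of_comm hc₂]))
      have hc₃ : ¬ ∀ g g' : E₃, Commute g g' := fun hc₃ =>
        hc₂ (h₂.comm_of_card (by rw [h23, h₃.card_of_comm hc₃]))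
      by_cases h8 : 8 < Nat.card E₁
      · obtain ⟨x₁, y₁, hxy₁, a₁, b₁⟩ := h₁.exists_dihedral_pair h8
        obtain ⟨x₂, y₂, hxy₂, a₂, b₂⟩ := h₂.exists_dihedral_pair (h12 ▸ h8)
        obtain ⟨x₃, y₃, hxy₃, a₃, b₃⟩ := h₃.exists_dihedral_pair (h23 ▸ h12 ▸ h8)
        have k₁ := h₁.card_eq hxy₁
        have k₂ := h₂.card_eq hxy₂
        have k₃ := h₃.card_eq hxy₃
        rcases ih ↥(centralizer ({x₁, y₁} : Set E₁)) ↥(centralizer ({x₂, y₂} : Set E₂))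
          ↥(centralizer ({x₃, y₃} : Set E₃))
          ⟨z₁, h₁.z_mem_cen x₁ y₁⟩ ⟨z₂, h₂.z_mem_cen x₂ y₂⟩ ⟨z₃, h₃.z_mem_cen x₃ y₃⟩
          (h₁.sub hxy₁) (h₂.sub hxy₂) (h₃.sub hxy₃) (by omega) (by omega) (by omega)
          with ⟨⟨ψ⟩⟩ | ⟨⟨ψ⟩⟩ | ⟨⟨ψ⟩⟩
        · exact Or.inl (WG.iso_of_pairs h₁ h₂ hxy₁ hxy₂ (Or.inl ⟨a₁, b₁, a₂, b₂⟩) ψ)
        · exact Or.inr (Or.inl (WG.iso_of_pairs h₂ h₃ hxy₂ hxy₃ (Or.inl ⟨a₂, b₂, a₃, b₃⟩) ψ))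
        · exact Or.inr (Or.inr (WG.iso_of_pairs h₁ h₃ hxy₁ hxy₃ (Or.inl ⟨a₁, b₁, a₃, b₃⟩) ψ))
      · obtain ⟨x₁', y₁', hxy₁'⟩ := h₁.exists_pair hc₁
        obtain ⟨x₂', y₂', hxy₂'⟩ := h₂.exists_pair hc₂
        obtain ⟨x₃', y₃', hxy₃'⟩ := h₃.exists_pair hc₃
        obtain ⟨x₁, y₁, hxy₁, t₁⟩ := h₁.pair_type hxy₁'
        obtain ⟨x₂, y₂, hxy₂, t₂⟩ := h₂.pair_type hxy₂'
        obtain ⟨x₃, y₃, hxy₃, t₃⟩ := h₃.pair_type hxy₃'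
        have k₁ := h₁.card_eq hxy₁
        have d₁ := (h₁.sub hxy₁).two_dvd_card
        have e₁ : Nat.card E₁ = 8 := by
          obtain ⟨m, hm⟩ := d₁
          rw [hm] at k₁
          have : 0 < m := by
            rcases Nat.eq_zero_or_pos m with h0 | h0
            · rw [h0] at hm
              have := Nat.card_pos (α := ↥(centralizer ({x₁, y₁} : Set E₁)))
              omega
            · exact h0
          omega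
        have e₂ : Nat.card E₂ = 8 := by omega
        have e₃ : Nat.card E₃ = 8 := by omega
        rcases t₁ with ⟨a₁, b₁⟩ | ⟨a₁, b₁⟩ <;> rcases t₂ with ⟨a₂, b₂⟩ | ⟨a₂, b₂⟩ <;>
          rcases t₃ with ⟨a₃, b₃⟩ | ⟨a₃, b₃⟩
        · exact Or.inl (WG.iso8 h₁ h₂ e₁ e₂ hxy₁ hxy₂ (Or.inl ⟨a₁, b₁, a₂, b₂⟩))
        · exact Or.inl (WG.iso8 h₁ h₂ e₁ e₂ hxy₁ hxy₂ (Or.inl ⟨a₁, b₁, a₂, b₂⟩))
        · exact Or.inr (Or.inr (WG.iso8 h₁ h₃ e₁ e₃ hxy₁ hxy₃ (Or.inl ⟨a₁, b₁, a₃, b₃⟩)))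
        · exact Or.inr (Or.inl (WG.iso8 h₂ h₃ e₂ e₃ hxy₂ hxy₃ (Or.inr ⟨a₂, b₂, a₃, b₃⟩)))
        · exact Or.inr (Or.inl (WG.iso8 h₂ h₃ e₂ e₃ hxy₂ hxy₃ (Or.inl ⟨a₂, b₂, a₃, b₃⟩)))
        · exact Or.inr (Or.inr (WG.iso8 h₁ h₃ e₁ e₃ hxy₁ hxy₃ (Or.inr ⟨a₁, b₁, a₃, b₃⟩)))
        · exact Or.inl (WG.iso8 h₁ h₂ e₁ e₂ hxy₁ hxy₂ (Or.inr ⟨a₁, b₁, a₂, b₂⟩))
        · exact Or.inl (WG.iso8 h₁ h₂ e₁ e₂ hxy₁ hxy₂ (Or.inr ⟨a₁, b₁, a₂, b₂⟩))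

end Cfsg.Agent.Lib.Helper2
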