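import Mathlib
import Cfsg.Prelude.Def_Characters
import Cfsg.Agent.Lib.Helper2.CharGalois
import Cfsg.Agent.Lib.Helper2.CharBridge

set_option autoImplicit false

namespace Cfsg.Agent.Lib.Helper2

open Representation Module

noncomputable section

/-- positive reals with product at least one have sum at least the number of terms -/
theorem card_le_sum_of_one_le_prod {ι : Type*} (s : Finset ι) (a : ι → ℝ)
    (ha : ∀ i ∈ s, 0 < a i) (hprod : 1 ≤ ∏ i ∈ s, a i) : (s.card : ℝ) ≤ ∑ i ∈ s, a i := by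
  have h1 : ∑ i ∈ s, Real.log (a i) ≤ ∑ i ∈ s, (a i - 1) :=
    Finset.sum_le_sum (fun i hi => Real.log_le_sub_one_of_pos (ha i hi))
  have h2 : Real.log (∏ i ∈ s, a i) = ∑ i ∈ s, Real.log (a i) :=
    Real.log_prod (fun i hi => (ha i hi).ne')
  have h3 : 0 ≤ Real.log (∏ i ∈ s, a i) := Real.log_nonneg hprod
  rw [Finset.sum_sub_distrib] at h1
  simp only [Finset.sum_const, nsmul_eq_mul, mul_one] at h1
  linarith

/-- the sum over the Galois group of the squared absolute values of the conjugates of a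
nonzero cyclotomic integer is at least the order of the Galois group -/
theorem galois_avg_ge (n : ℕ) [NeZero n] (x : CycK n) (hx : x ≠ 0) (hint : IsIntegral ℤ x) :
    (Fintype.card (CycK n ≃ₐ[ℚ] CycK n) : ℝ)
      ≤ ∑ σ : CycK n ≃ₐ[ℚ] CycK n, ‖cycEmb n (σ x)‖ ^ 2 := by
  classical
  have hNint : IsIntegral ℤ (Algebra.norm ℚ x) := Algebra.isIntegral_norm ℚ hint
  obtain ⟨k, hk⟩ := IsIntegrallyClosed.isIntegral_iff.mp hNint
  have hprod := Algebra.norm_eq_prod_automorphisms ℚ x
  have hprodC := congrArg (cycEmb n) hprod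
  rw [map_prod] at hprodC
  have hL : cycEmb n (algebraMap ℚ (CycK n) (Algebra.norm ℚ x)) = (k : ℂ) := by
    rw [AlgHom.commutes, ← hk]
    simp
  rw [hL] at hprodC
  have hk0 : k ≠ 0 := by
    intro h0
    rw [h0] at hk
    have hN0 : Algebra.norm ℚ x = 0 := by
      rw [← hk]
      simp
    exact hx (Algebra.norm_eq_zero_iff.mp hN0)
  have hk1 : (1 : ℝ) ≤ ‖(k : ℂ)‖ := by
    rw [Complex.norm_intCast]
    have : (1 : ℤ) ≤ |k| := Int.one_le_abs hk0
    exact_mod_cast this
  have hpos : ∀ σ : CycK n ≃ₐ[ℚ] CycK n, 0 < ‖cycEmb n (σ x)‖ ^ 2 := by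
    intro σ
    apply pow_pos
    rw [norm_pos_iff]
    intro h0
    have h1 : σ x = 0 := (cycEmb_injective n) (by rw [h0, map_zero])
    exact hx (by simpa using h1)
  have hp : (1 : ℝ) ≤ ∏ σ : CycK n ≃ₐ[ℚ] CycK n, ‖cycEmb n (σ x)‖ ^ 2 := by
    rw [Finset.prod_pow, ← norm_prod, ← hprodC]
    exact one_le_pow₀ hk1
  have := card_le_sum_of_one_le_prod Finset.univ _ (fun σ _ => hpos σ) hp
  simpa using this

section zeros

variable {G : Type*} [Group G] [Fintype G]
variable {V : Type*} [AddCommGroup V] [Module ℂ V] [FiniteDimensional ℂ V]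

/-- Galois averaging: elements where the character is neither zero nor of full absolute value
contribute at least one each to the sum of squared absolute values. -/
theorem sum_norm_sq_ge [DecidableEq G] (ρ : Representation ℂ G V) (hd : 0 < finrank ℂ V) :
    ((finrank ℂ V : ℝ) ^ 2 - 1)
        * ((Finset.univ.filter (fun g : G => ‖ρ.character g‖ = (finrank ℂ V : ℝ))).card : ℝ)
      + (Fintype.card G : ℝ)
      - ((Finset.univ.filter (fun g : G => ρ.character g = 0)).card : ℝ)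
      ≤ ∑ g : G, ‖ρ.character g‖ ^ 2 := by
  classical
  set d := finrank ℂ V with hdef
  set Z := Finset.univ.filter (fun g : G => ‖ρ.character g‖ = (d : ℝ)) with hZ
  set O := Finset.univ.filter (fun g : G => ρ.character g = 0) with hO
  have hn : NeZero (Fintype.card G) := ⟨Fintype.card_ne_zero⟩
  set n := Fintype.card G with hndef
  have hm : ∀ σ : CycK n ≃ₐ[ℚ] CycK n, ∃ m : ℕ, m.Coprime n ∧ σ (cycZeta n) = cycZeta n ^ m :=
    fun σ => aut_zeta n σ
  choose m hmc hmz using hm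
  have hx : ∀ g : G, ∃ x : CycK n, cycEmb n x = ρ.character g ∧
      ∀ (σ : CycK n ≃ₐ[ℚ] CycK n) (k : ℕ), σ (cycZeta n) = cycZeta n ^ k →
        cycEmb n (σ x) = ρ.character (g ^ k) := fun g =>
    char_lift_self n ρ g (orderOf_dvd_card)
  choose x hx1 hx2 using hx
  set Γc : ℝ := (Fintype.card (CycK n ≃ₐ[ℚ] CycK n) : ℝ) with hΓ
  have hΓpos : 0 < Γc := by
    rw [hΓ]
    exact_mod_cast Fintype.card_pos
  -- reindexing
  have hre : ∀ σ : CycK n ≃ₐ[ℚ] CycK n,
      ∑ g : G, ‖ρ.character (g ^ m σ)‖ ^ 2 = ∑ g : G, ‖ρ.character g‖ ^ 2 := by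
    intro σ
    have hc : (Nat.card G).Coprime (m σ) := by
      rw [Nat.card_eq_fintype_card]
      exact (hmc σ).symm
    exact Equiv.sum_comp (powCoprime hc) (fun g => ‖ρ.character g‖ ^ 2)
  have htot : Γc * ∑ g : G, ‖ρ.character g‖ ^ 2
      = ∑ g : G, ∑ σ : CycK n ≃ₐ[ℚ] CycK n, ‖cycEmb n (σ (x g))‖ ^ 2 := by
    rw [Finset.sum_comm]
    have : ∀ σ : CycK n ≃ₐ[ℚ] CycK n, ∑ g : G, ‖cycEmb n (σ (x g))‖ ^ 2
        = ∑ g : G, ‖ρ.character g‖ ^ 2 := by
      intro σ
      rw [← hre σ]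
      apply Finset.sum_congr rfl
      intro g _
      rw [hx2 g σ (m σ) (hmz σ)]
    rw [Finset.sum_congr rfl (fun σ _ => this σ), Finset.sum_const, Finset.card_univ,
      nsmul_eq_mul]
  -- pointwise bounds
  let c : G → ℝ := fun g => if g ∈ Z then (d : ℝ) ^ 2 else if g ∈ O then 0 else 1
  have hpt : ∀ g : G, Γc * c g ≤ ∑ σ : CycK n ≃ₐ[ℚ] CycK n, ‖cycEmb n (σ (x g))‖ ^ 2 := by
    intro g
    by_cases hgZ : g ∈ Z
    · have hcg : c g = (d : ℝ) ^ 2 := if_pos hgZ
      rw [hcg]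
      have hgZ' : ‖ρ.character g‖ = (d : ℝ) := (Finset.mem_filter.mp hgZ).2
      obtain ⟨ω, hω⟩ := (norm_char_eq_iff ρ g).mp hgZ'
      have hall : ∀ σ : CycK n ≃ₐ[ℚ] CycK n, ‖cycEmb n (σ (x g))‖ ^ 2 = (d : ℝ) ^ 2 := by
        intro σ
        rw [hx2 g σ (m σ) (hmz σ)]
        congr 1
        apply (norm_char_eq_iff ρ (g ^ m σ)).mpr
        refine ⟨ω ^ m σ, ?_⟩
        rw [map_pow, hω, smul_pow, ← Module.End.one_eq_id, one_pow]
      rw [Finset.sum_congr rfl (fun σ _ => hall σ), Finset.sum_const, Finset.card_univ,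
        nsmul_eq_mul]
    · by_cases hgO : g ∈ O
      · have hcg : c g = 0 := by
          show (if g ∈ Z then (d : ℝ) ^ 2 else if g ∈ O then 0 else 1) = 0
          rw [if_neg hgZ, if_pos hgO]
        rw [hcg, mul_zero]
        exact Finset.sum_nonneg (fun σ _ => by positivity)
      · have hcg : c g = 1 := by
          show (if g ∈ Z then (d : ℝ) ^ 2 else if g ∈ O then 0 else 1) = 1
          rw [if_neg hgZ, if_neg hgO]
        rw [hcg, mul_one]
        have hne : ρ.character g ≠ 0 := fun h0 => hgO (Finset.mem_filter.mpr ⟨Finset.mem_univ _, h0⟩)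
        have hx0 : x g ≠ 0 := by
          intro h0
          apply hne
          rw [← hx1 g, h0, map_zero]
        have hxint : IsIntegral ℤ (x g) := by
          have h1 : IsIntegral ℤ (cycEmb n (x g)) := by
            rw [hx1 g]
            exact char_isIntegral ρ g
          exact (isIntegral_algHom_iff ((cycEmb n).restrictScalars ℤ) (cycEmb_injective n)).mp h1
        exact galois_avg_ge n (x g) hx0 hxint
  have hsum : Γc * ∑ g : G, c g ≤ Γc * ∑ g : G, ‖ρ.character g‖ ^ 2 := by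
    rw [htot, Finset.mul_sum]
    exact Finset.sum_le_sum (fun g _ => hpt g)
  have hsum' : ∑ g : G, c g ≤ ∑ g : G, ‖ρ.character g‖ ^ 2 := le_of_mul_le_mul_left hsum hΓpos
  refine le_trans (le_of_eq ?_) hsum'
  -- compute the sum of c
  have hdisj : Disjoint Z O := by
    rw [Finset.disjoint_left]
    intro g hgZ hgO
    have h1 : ‖ρ.character g‖ = (d : ℝ) := (Finset.mem_filter.mp hgZ).2
    have h2 : ρ.character g = 0 := (Finset.mem_filter.mp hgO).2
    rw [h2, norm_zero] at h1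
    have : (d : ℝ) ≠ 0 := by exact_mod_cast hd.ne'
    exact this h1.symm
  have hc1 : ∑ g : G, c g = ∑ g ∈ Z, ((d : ℝ) ^ 2 - 1) + ∑ g : G, (1 : ℝ) - ∑ g ∈ O, (1 : ℝ) := by
    have e1 : ∀ g : G, c g = (if g ∈ Z then ((d : ℝ) ^ 2 - 1) else 0) + 1
        - (if g ∈ O then 1 else 0) := by
      intro g
      show (if g ∈ Z then (d : ℝ) ^ 2 else if g ∈ O then 0 else 1) = _
      by_cases hgZ : g ∈ Z
      · have hgO : g ∉ O := Finset.disjoint_left.mp hdisj hgZ
        rw [if_pos hgZ, if_pos hgZ, if_neg hgO]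
        ring
      · by_cases hgO : g ∈ O
        · rw [if_neg hgZ, if_pos hgO, if_neg hgZ, if_pos hgO]
          ring
        · rw [if_neg hgZ, if_neg hgO, if_neg hgZ, if_neg hgO]
          ring
    rw [Finset.sum_congr rfl (fun g _ => e1 g), Finset.sum_sub_distrib, Finset.sum_add_distrib,
      Finset.sum_ite_mem, Finset.sum_ite_mem, Finset.univ_inter, Finset.univ_inter]
  rw [hc1, Finset.sum_const, Finset.sum_const, Finset.sum_const, Finset.card_univ]
  simp only [nsmul_eq_mul, mul_one]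
  ring

end zeros

end

end Cfsg.Agent.Lib.Helper2
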