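import Mathlib
import Cfsg.Agent.Lib.Helper2.PChain
import Cfsg.Agent.Lib.Helper2.ClassThree
import Cfsg.Agent.Lib.Helper2.Level
import Cfsg.Agent.Lib.Helper2.MaxClass
import Cfsg.Agent.Lib.Helper21.PGroup

set_option autoImplicit false

namespace Cfsg.Agent.Lib.Helper2

open scoped commutatorElement

section ranktwo

variable {G : Type*} [Group G]

/-- if every commutator `⁅x, g⁆` lies in the normal subgroup `A`, so do the commutators of the
powers of `x` -/
theorem commutator_zpowers_le_of_forall (A : Subgroup G) [A.Normal] {x : G}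
    (hcomm : ∀ g : G, ⁅x, g⁆ ∈ A) : ⁅Subgroup.zpowers x, (⊤ : Subgroup G)⁆ ≤ A := by
  have hzx : Subgroup.zpowers x ≤ (Subgroup.center (G ⧸ A)).comap (QuotientGroup.mk' A) := by
    rw [Subgroup.zpowers_le, Subgroup.mem_comap, Subgroup.mem_center_iff]
    intro y
    obtain ⟨g, rfl⟩ := QuotientGroup.mk_surjective y
    have h1 := hcomm g
    rw [commutatorElement_def] at h1
    have h2 : (QuotientGroup.mk' A) (x * g * x⁻¹ * g⁻¹) = 1 :=
      (QuotientGroup.eq_one_iff _).mpr h1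
    have h3 : (QuotientGroup.mk' A) (x * g) = (QuotientGroup.mk' A) (g * x) := by
      have : x * g = (x * g * x⁻¹ * g⁻¹) * (g * x) := by group
      rw [this, map_mul, h2, one_mul]
    rw [map_mul, map_mul] at h3
    exact h3.symm
  rw [Subgroup.commutator_le]
  intro y hy g _
  have h1 := hzx hy
  rw [Subgroup.mem_comap, Subgroup.mem_center_iff] at h1
  have h2 := h1 ((QuotientGroup.mk' A) g)
  rw [← QuotientGroup.eq_one_iff, ← QuotientGroup.mk'_apply, map_commutatorElement,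
    commutatorElement_eq_one_iff_commute]
  exact h2.symm

/-- commutators with a normal subgroup of order at most `p ^ 2` of a `p`-group are central -/
theorem comm_mem_center_of_card_le_sq [Finite G] {p : ℕ} [Fact p.Prime] (hG : IsPGroup p G)
    (A : Subgroup G) [hAn : A.Normal] (a : ℕ) (ha : Nat.card A = p ^ a) (ha2 : a ≤ 2) :
    ∀ c ∈ A, ∀ g : G, ⁅c, g⁆ ∈ Subgroup.center G := by
  classical
  have hp : p.Prime := Fact.out
  have hcentral : ∀ (C : Subgroup G), C ≤ Subgroup.center G → ∀ c ∈ C, ∀ g : G, ⁅c, g⁆ = 1 := by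
    intro C hC c hc g
    rw [commutatorElement_eq_one_iff_commute]
    exact ((Subgroup.mem_center_iff.mp (hC hc)) g).symm
  intro c hc g
  interval_cases a
  · have hA : A = ⊥ := by
      rw [pow_zero] at ha
      exact Subgroup.card_eq_one.mp ha
    have hc1 : c = 1 := by
      rw [hA] at hc
      exact Subgroup.mem_bot.mp hc
    rw [hc1, commutatorElement_one_left]
    exact Subgroup.one_mem _
  · rw [pow_one] at ha
    have hAZ := Cfsg.Agent.Lib.Helper21.le_center_of_normal_of_card_eq_prime hG A ha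
    rw [hcentral A hAZ c hc g]
    exact Subgroup.one_mem _
  · obtain ⟨C, hCn, hCA, hCcard⟩ := exists_normal_le_card hG A 2 ha 1 (by omega)
    rw [pow_one] at hCcard
    have hCZ := Cfsg.Agent.Lib.Helper21.le_center_of_normal_of_card_eq_prime hG C hCcard
    have hCltA : C < A := by
      refine lt_of_le_of_ne hCA ?_
      rintro rfl
      rw [ha] at hCcard
      have h1 : p ^ 2 = p ^ 1 := by rw [hCcard, pow_one]
      have := Nat.pow_right_injective hp.two_le h1
      omega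
    obtain ⟨x, hxA, hxC, hxp, hcomm⟩ := Cfsg.Agent.S0129.exists_step hG C A hCltA
    have hcard : Nat.card (C ⊔ Subgroup.zpowers x : Subgroup G) = p ^ 2 := by
      rw [card_sup_zpowers_of_pow_mem C x p hxC hxp, hCcard]
      ring
    have hle : C ⊔ Subgroup.zpowers x ≤ A := sup_le hCA (Subgroup.zpowers_le.mpr hxA)
    have hEq : C ⊔ Subgroup.zpowers x = A :=
      Subgroup.eq_of_le_of_card_ge hle (by rw [ha, hcard])
    have hc' : c ∈ ((C ⊔ Subgroup.zpowers x : Subgroup G) : Set G) := by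
      rw [hEq]
      exact hc
    rw [Subgroup.normal_mul] at hc'
    obtain ⟨c₁, hc₁, y, hy, rfl⟩ := Set.mem_mul.mp hc'
    have hc₁Z : ∀ h : G, h * c₁ = c₁ * h := Subgroup.mem_center_iff.mp (hCZ hc₁)
    have e : ⁅c₁ * y, g⁆ = ⁅y, g⁆ := by
      rw [commutatorElement_def, commutatorElement_def]
      calc c₁ * y * g * (c₁ * y)⁻¹ * g⁻¹ = c₁ * (y * g * y⁻¹) * c₁⁻¹ * g⁻¹ := by group
        _ = (y * g * y⁻¹) * c₁ * c₁⁻¹ * g⁻¹ := by rw [← hc₁Z (y * g * y⁻¹)]
        _ = y * g * y⁻¹ * g⁻¹ := by group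
    rw [e]
    exact hCZ (hcomm (Subgroup.commutator_mem_commutator hy (Subgroup.mem_top g)))

/-- the class-three computation: a product of two elements of order dividing `p` whose
commutator lies in a normal elementary abelian subgroup with central commutators -/
theorem mul_pow_eq_one_of_comm_mem {p : ℕ} (hp : p.Prime) (hp3 : 3 < p) (A : Subgroup G)
    [hAn : A.Normal] (hAe : ∀ a ∈ A, a ^ p = 1)
    (hcent : ∀ c ∈ A, ∀ g : G, ⁅c, g⁆ ∈ Subgroup.center G) {x x' : G} (hx : x ^ p = 1)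
    (hx' : x' ^ p = 1) (hz : ⁅x', x⁆ ∈ A) : (x * x') ^ p = 1 := by
  have hu : ⁅⁅x', x⁆, x⁆ ∈ Subgroup.center G := hcent _ hz x
  have hv' : ⁅⁅x', x⁆, x'⁆ ∈ Subgroup.center G := hcent _ hz x'
  have hv : ⁅x', ⁅x', x⁆⁆ ∈ Subgroup.center G := by
    have := Subgroup.inv_mem _ hv'
    rwa [commutatorElement_inv] at this
  have huA : ⁅⁅x', x⁆, x⁆ ∈ A := by
    rw [commutatorElement_def]
    have h1 : x * ⁅x', x⁆⁻¹ * x⁻¹ ∈ A := hAn.conj_mem _ (A.inv_mem hz) x
    have h2 : ⁅x', x⁆ * x * ⁅x', x⁆⁻¹ * x⁻¹ = ⁅x', x⁆ * (x * ⁅x', x⁆⁻¹ * x⁻¹) := by group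
    rw [h2]
    exact A.mul_mem hz h1
  have hvA : ⁅x', ⁅x', x⁆⁆ ∈ A := by
    rw [commutatorElement_def]
    have h1 : x' * ⁅x', x⁆ * x'⁻¹ ∈ A := hAn.conj_mem _ hz x'
    exact A.mul_mem h1 (A.inv_mem hz)
  have cu : ∀ g : G, Commute ⁅⁅x', x⁆, x⁆ g := fun g => ((Subgroup.mem_center_iff.mp hu) g).symm
  have cv : ∀ g : G, Commute ⁅x', ⁅x', x⁆⁆ g := fun g => ((Subgroup.mem_center_iff.mp hv) g).symm
  have key := mul_pow_class_three (x := x) (y := x') (z := ⁅x', x⁆) (u := ⁅⁅x', x⁆, x⁆)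
    (v := ⁅x', ⁅x', x⁆⁆)
    (by simp only [commutatorElement_def]; group)
    (by simp only [commutatorElement_def]; group)
    (by simp only [commutatorElement_def]; group)
    (cu x) (cu _) (cv x) (cv x') (cv _) (cu _) p
  have d2 : p ∣ p.choose 2 := hp.dvd_choose_self (by norm_num) (by omega)
  have d3 : p ∣ p.choose 3 := hp.dvd_choose_self (by norm_num) (by omega)
  have d4 : p ∣ (p + 1).choose 3 := by
    rw [Nat.choose_succ_succ' p 2]
    exact dvd_add d2 d3
  rw [key, pow_eq_one_of_dvd (hAe _ huA) d4, pow_eq_one_of_dvd (hAe _ hvA) d3,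
    pow_eq_one_of_dvd (hAe _ hz) d2, hx, hx']
  simp

end ranktwo

end Cfsg.Agent.Lib.Helper2
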